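import Cfsg.Agent.Lib.Helper35.JR.Defs

/-!
JR (S3206), package [FUS]: in a nonabelian simple group with Sylow 2-subgroups elementary abelian
of order 8, `N_G(S)` is transitive on the involutions of `S`.
-/

set_option autoImplicit false

namespace Cfsg.Agent.Lib.Helper8.JR

open Cfsg Cfsg.Agent.Lib.Helper35.JR

universe u

/-- odd numbers different from `1` are at least `3`; two of them with sum `≤ 7` are both `3`. -/
private theorem odd_arith {a b : ℕ} (ha : Odd a) (hb : Odd b) (ha1 : a ≠ 1) (hb1 : b ≠ 1)
    (h : a + b ≤ 7) : a = 3 ∧ b = 3 := by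
  obtain ⟨k, rfl⟩ := ha
  obtain ⟨l, rfl⟩ := hb
  omega

theorem pkgFus : PkgFus.{u} := by
  intro G _ _ _ hnc hS8 S s hs hs1 s' hs' hs'1
  classical
  obtain ⟨hcard, hexp⟩ := hS8 S
  -- `S` is commutative
  have hinv : ∀ x ∈ (S : Subgroup G), x⁻¹ = x := by
    intro x hx
    have h := hexp x hx
    rw [pow_two] at h
    exact inv_eq_of_mul_eq_one_left h
  have hcomm : ∀ x ∈ (S : Subgroup G), ∀ y ∈ (S : Subgroup G), x * y = y * x := by
    intro x hx y hy
    have h := hinv (x * y) ((S : Subgroup G).mul_mem hx hy)
    rw [mul_inv_rev, hinv x hx, hinv y hy] at h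
    exact h.symm
  -- the index of `S` is odd
  have hodd : Odd (S : Subgroup G).index := by
    have h := S.not_dvd_index
    rwa [← even_iff_two_dvd, Nat.not_even_iff_odd] at h
  -- the conjugation action of the normalizer
  set N : Subgroup G := Subgroup.normalizer ((S : Subgroup G) : Set G) with hN
  letI : MulAction N G := MulAction.compHom G ((MulAut.conj : G →* MulAut G).comp N.subtype)
  have hsmul : ∀ (n : N) (x : G), n • x = (n : G) * x * (n : G)⁻¹ := fun _ _ => rfl
  have hSN : (S : Subgroup G) ≤ N := Subgroup.le_normalizer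
  -- invariance
  have hinvS : ∀ (n : N) (x : G), x ∈ (S : Subgroup G) → n • x ∈ (S : Subgroup G) := by
    intro n x hx
    rw [hsmul]
    exact (Subgroup.mem_normalizer_iff.mp n.2 x).mp hx
  have hinv1 : ∀ (n : N) (x : G), x ≠ 1 → n • x ≠ 1 := by
    intro n x hx h
    rw [hsmul] at h
    exact hx (conj_eq_one_iff.mp h)
  -- orbits are odd
  have horb_odd : ∀ x ∈ (S : Subgroup G), Odd (MulAction.orbit N x).ncard := by
    intro x hx
    rw [← MulAction.index_stabilizer]
    have hle : (S : Subgroup G).subgroupOf N ≤ MulAction.stabilizer N x := by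
      intro n hn
      rw [Subgroup.mem_subgroupOf] at hn
      rw [MulAction.mem_stabilizer_iff, hsmul, hcomm _ hn _ hx, mul_inv_cancel_right]
    have h1 : (MulAction.stabilizer N x).index ∣ ((S : Subgroup G).subgroupOf N).index :=
      Subgroup.index_dvd_of_le hle
    have h2 : ((S : Subgroup G).subgroupOf N).index ∣ (S : Subgroup G).index :=
      Dvd.intro _ (Subgroup.relIndex_mul_index hSN)
    exact Odd.of_dvd_nat hodd (h1.trans h2)
  -- no fixed points (transfer)
  have hnofix : ∀ x ∈ (S : Subgroup G), x ≠ 1 → ¬ (∀ n : N, n • x = x) := by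
    intro x hx hx1 hfix
    letI : CommGroup ↥(S : Subgroup G) :=
      { (inferInstance : Group ↥(S : Subgroup G)) with
        mul_comm := fun a b => Subtype.ext (hcomm a a.2 b b.2) }
    have hcent : ∀ y ∈ (S : Subgroup G), y ∈ Subgroup.centralizer ((S : Subgroup G) : Set G) := by
      intro y hy
      rw [Subgroup.mem_centralizer_iff]
      intro z hz
      exact hcomm z hz y hy
    have key : ∀ (k : ℕ) (g₀ : G), g₀⁻¹ * x ^ k * g₀ ∈ (S : Subgroup G) →
        g₀⁻¹ * x ^ k * g₀ = x ^ k := by
      intro k g₀ hk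
      obtain ⟨n, hn, h⟩ := S.conj_eq_normalizer_conj_of_mem_centralizer (x ^ k) g₀
        (hcent _ ((S : Subgroup G).pow_mem hx k)) (hcent _ hk)
      rw [h]
      have hn' : n⁻¹ ∈ N := N.inv_mem hn
      have h3 := hfix ⟨n⁻¹, hn'⟩
      rw [hsmul] at h3
      simp only [inv_inv] at h3
      calc n⁻¹ * x ^ k * n = (n⁻¹ * x * n) ^ k := by
            have := conj_pow (a := n⁻¹) (b := x) (i := k)
            simp only [inv_inv] at this
            exact this.symm
        _ = x ^ k := by rw [h3]
    have htr := MonoidHom.transfer_eq_pow (MonoidHom.id ↥(S : Subgroup G)) x key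
    have hpow : x ^ (S : Subgroup G).index = x := by
      obtain ⟨m, hm⟩ := hodd
      rw [hm, pow_succ, pow_mul, hexp x hx, one_pow, one_mul]
    -- the kernel of the transfer
    rcases (MonoidHom.transfer (MonoidHom.id ↥(S : Subgroup G))).normal_ker.eq_bot_or_eq_top with
      hk | hk
    · -- injective: `G` would be commutative
      apply hnc
      refine ⟨⟨fun a b => ?_⟩⟩
      have hinj := (MonoidHom.ker_eq_bot_iff _).mp hk
      apply hinj
      rw [map_mul, map_mul, mul_comm]
    · -- trivial: `x = 1`
      have h1 : MonoidHom.transfer (MonoidHom.id ↥(S : Subgroup G)) x = 1 := by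
        have : x ∈ (MonoidHom.transfer (MonoidHom.id ↥(S : Subgroup G))).ker := by
          rw [hk]; exact Subgroup.mem_top x
        exact this
      rw [htr] at h1
      have h2 := congrArg (fun z : ↥(S : Subgroup G) => (z : G)) h1
      simp only [MonoidHom.id_apply, OneMemClass.coe_one] at h2
      rw [hpow] at h2
      exact hx1 h2
  -- orbits have at least three elements
  have horb_ne1 : ∀ x ∈ (S : Subgroup G), x ≠ 1 → (MulAction.orbit N x).ncard ≠ 1 := by
    intro x hx hx1 h
    obtain ⟨a, ha⟩ := Set.ncard_eq_one.mp h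
    have hxa : x = a := by
      have : x ∈ MulAction.orbit N x := MulAction.mem_orbit_self x
      rw [ha] at this
      exact this
    apply hnofix x hx hx1
    intro n
    have : n • x ∈ MulAction.orbit N x := MulAction.mem_orbit x n
    rw [ha, ← hxa] at this
    exact this
  -- the set of involutions of `S`
  set T : Set G := {x | x ∈ (S : Subgroup G) ∧ x ≠ 1} with hT
  have hTcard : T.ncard = 7 := by
    have h1 : T = ((S : Subgroup G) : Set G) \ {1} := by
      ext x
      constructor
      · rintro ⟨h, h1⟩
        exact ⟨h, by simpa using h1⟩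
      · rintro ⟨h, h1⟩
        exact ⟨h, by simpa using h1⟩
    have h2 : (((S : Subgroup G) : Set G)).ncard = 8 := by
      rw [← Nat.card_coe_set_eq]
      exact hcard
    rw [h1, Set.ncard_diff_singleton_of_mem (Subgroup.one_mem _), h2]
  have horbT : ∀ x ∈ T, MulAction.orbit N x ⊆ T := by
    rintro x ⟨hx, hx1⟩ y ⟨n, rfl⟩
    exact ⟨hinvS n x hx, hinv1 n x hx1⟩
  -- transitivity
  have hmem : s' ∈ MulAction.orbit N s := by
    by_contra hnot
    have hdisj : Disjoint (MulAction.orbit N s) (MulAction.orbit N s') := by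
      rw [Set.disjoint_left]
      intro y hy hy'
      apply hnot
      have e1 := MulAction.orbit_eq_iff.mpr hy
      have e2 := MulAction.orbit_eq_iff.mpr hy'
      rw [← e1, e2]
      exact MulAction.mem_orbit_self s'
    have hunion : MulAction.orbit N s ∪ MulAction.orbit N s' ⊆ T :=
      Set.union_subset (horbT s ⟨hs, hs1⟩) (horbT s' ⟨hs', hs'1⟩)
    have hle : (MulAction.orbit N s ∪ MulAction.orbit N s').ncard ≤ 7 := by
      rw [← hTcard]
      exact Set.ncard_le_ncard hunion (Set.toFinite _)
    rw [Set.ncard_union_eq hdisj (Set.toFinite _) (Set.toFinite _)] at hle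
    obtain ⟨ha, hb⟩ := odd_arith (horb_odd s hs) (horb_odd s' hs') (horb_ne1 s hs hs1)
      (horb_ne1 s' hs' hs'1) hle
    have hR : (T \ (MulAction.orbit N s ∪ MulAction.orbit N s')).ncard = 1 := by
      rw [Set.ncard_diff hunion (Set.toFinite _), hTcard,
        Set.ncard_union_eq hdisj (Set.toFinite _) (Set.toFinite _), ha, hb]
    obtain ⟨z, hz⟩ := Set.ncard_eq_one.mp hR
    have hzR : z ∈ T \ (MulAction.orbit N s ∪ MulAction.orbit N s') := by
      rw [hz]; exact Set.mem_singleton z
    obtain ⟨⟨hzS, hz1⟩, hznot⟩ := hzR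
    apply hnofix z hzS hz1
    intro n
    have hnz : n • z ∈ T \ (MulAction.orbit N s ∪ MulAction.orbit N s') := by
      refine ⟨⟨hinvS n z hzS, hinv1 n z hz1⟩, ?_⟩
      rintro (h | h)
      · apply hznot
        left
        have e := MulAction.orbit_eq_iff.mpr h
        rw [MulAction.orbit_smul] at e
        rw [← e]
        exact MulAction.mem_orbit_self z
      · apply hznot
        right
        have e := MulAction.orbit_eq_iff.mpr h
        rw [MulAction.orbit_smul] at e
        rw [← e]
        exact MulAction.mem_orbit_self z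
    rw [hz] at hnz
    exact hnz
  obtain ⟨n, hn⟩ := hmem
  refine ⟨(n : G), n.2, ?_⟩
  rw [← hn]
  exact (hsmul n s).symm

end Cfsg.Agent.Lib.Helper8.JR
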