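import Cfsg.Agent.Lib.Helper35.JR.Defs

/-!
JR (S3206), package [MULT]: a group with Sylow 2-subgroups `E₈` whose normalizers are transitive
on the involutions has no nontrivial perfect central extension by a 2-group.

Route (no characters): all commutators of a Sylow 2-subgroup `P` of `L` lie in the subgroup
`W = {w² | w ∈ Z}` of `Z`, and the transfer into `P/[P,P]` shows `Z ≤ W`.
-/

set_option autoImplicit false

namespace Cfsg.Agent.Lib.Helper8.JR

open Cfsg Cfsg.Agent.Lib.Helper35.JR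
open scoped commutatorElement

universe u

/-- In a commutative group: `A * B⁻¹ * C⁻¹` with `A = q⁻¹ * (β * x * y)`, `B = q⁻¹ * y`,
`C = q⁻¹ * x` equals `β * q`. -/
private theorem comm_id1 {A : Type*} [CommGroup A] (q β x y : A) :
    (q⁻¹ * (β * x * y)) * (q⁻¹ * y)⁻¹ * (q⁻¹ * x)⁻¹ = β * q := by
  apply Additive.ofMul.injective
  simp only [ofMul_mul, ofMul_inv]
  abel

private theorem comm_id2 {A : Type*} [CommGroup A] (q β₁ β₂ : A) :
    (β₁ * q) * (β₂ * q) * (β₁ * β₂ * q)⁻¹ = q := by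
  apply Additive.ofMul.injective
  simp only [ofMul_mul, ofMul_inv]
  abel

private theorem comm_id3 {A : Type*} [CommGroup A] (z : A) (j : ℕ) :
    z ^ (2 * j + 1) * ((z ^ j)⁻¹) ^ 2 = z := by
  apply Additive.ofMul.injective
  simp only [ofMul_mul, ofMul_inv, ofMul_pow]
  rw [add_smul, mul_smul, one_smul, smul_neg]
  abel

theorem pkgMult : PkgMult.{u} := by
  intro G _ _ hS8 hFus L _ _ Z hZn hperf hZc hZ2 ⟨e⟩
  classical
  -- the projection
  let π : L →* G := e.toMonoidHom.comp (QuotientGroup.mk' Z)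
  have hπsurj : Function.Surjective π := e.surjective.comp (QuotientGroup.mk'_surjective Z)
  have hker : ∀ x : L, π x = 1 ↔ x ∈ Z := by
    intro x
    show e (QuotientGroup.mk' Z x) = 1 ↔ x ∈ Z
    rw [MulEquiv.map_eq_one_iff]
    exact QuotientGroup.eq_one_iff x
  -- a Sylow 2-subgroup containing `Z`
  obtain ⟨P, hZP⟩ := hZ2.exists_le_sylow
  have hSdef : ((P.mapSurjective hπsurj : Sylow 2 G) : Subgroup G) = (P : Subgroup L).map π :=
    Sylow.coe_mapSurjective hπsurj P
  obtain ⟨hcard, hexp⟩ := hS8 (P.mapSurjective hπsurj)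
  have hFusS := hFus (P.mapSurjective hπsurj)
  rw [hSdef] at hcard hexp hFusS
  -- central elements
  have hcen : ∀ z ∈ Z, ∀ g : L, g * z = z * g := fun z hz g =>
    Subgroup.mem_center_iff.mp (hZc hz) g
  have hπP : ∀ x ∈ (P : Subgroup L), π x ∈ (P : Subgroup L).map π := fun x hx =>
    Subgroup.mem_map_of_mem π hx
  have hSinv : ∀ u ∈ (P : Subgroup L).map π, u⁻¹ = u := by
    intro u hu
    have h := hexp u hu
    rw [pow_two] at h
    exact inv_eq_of_mul_eq_one_left h
  have hScomm : ∀ u ∈ (P : Subgroup L).map π, ∀ v ∈ (P : Subgroup L).map π, u * v = v * u := by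
    intro u hu v hv
    have h := hSinv (u * v) (Subgroup.mul_mem _ hu hv)
    rw [mul_inv_rev, hSinv u hu, hSinv v hv] at h
    exact h.symm
  have hsq : ∀ x ∈ (P : Subgroup L), x * x ∈ Z := by
    intro x hx
    rw [← hker, map_mul, ← pow_two]
    exact hexp _ (hπP x hx)
  have hcomm : ∀ x ∈ (P : Subgroup L), ∀ y ∈ (P : Subgroup L), y * x * y⁻¹ * x⁻¹ ∈ Z := by
    intro x hx y hy
    rw [← hker]
    simp only [map_mul, map_inv]
    rw [hScomm _ (hπP y hy) _ (hπP x hx)]
    group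
  -- `Z` as a commutative group, and the subgroup of squares
  letI : CommGroup ↥Z :=
    { (inferInstance : Group ↥Z) with
      mul_comm := fun a b => Subtype.ext (hcen b.1 b.2 a.1) }
  let W : Subgroup ↥Z := (powMonoidHom 2 : ↥Z →* ↥Z).range
  have hWmem : ∀ w : ↥Z, w ^ 2 ∈ W := fun w => ⟨w, rfl⟩
  -- squares and commutators as elements of `Z`
  let sq : ∀ x : L, x ∈ (P : Subgroup L) → ↥Z := fun x hx => ⟨x * x, hsq x hx⟩
  let bz : ∀ x : L, x ∈ (P : Subgroup L) → ∀ y : L, y ∈ (P : Subgroup L) → ↥Z :=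
    fun x hx y hy => ⟨y * x * y⁻¹ * x⁻¹, hcomm x hx y hy⟩
  -- (C1) squares of elements outside `Z` are congruent modulo `W`
  have hC1 : ∀ (x : L) (hx : x ∈ (P : Subgroup L)), x ∉ Z →
      ∀ (x' : L) (hx' : x' ∈ (P : Subgroup L)), x' ∉ Z → (sq x hx)⁻¹ * sq x' hx' ∈ W := by
    intro x hx hxZ x' hx' hx'Z
    have h1 : π x ≠ 1 := fun h => hxZ ((hker x).mp h)
    have h1' : π x' ≠ 1 := fun h => hx'Z ((hker x').mp h)
    obtain ⟨m, -, hmx⟩ := hFusS (π x) (hπP x hx) h1 (π x') (hπP x' hx') h1'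
    obtain ⟨n, rfl⟩ := hπsurj m
    have hz : (n * x * n⁻¹)⁻¹ * x' ∈ Z := by
      rw [← hker]
      simp only [map_mul, map_inv]
      rw [hmx]
      exact inv_mul_cancel _
    have hxx : n * (x * x) * n⁻¹ = x * x := by
      rw [hcen (x * x) (hsq x hx) n]
      group
    have hkey : x' * x' = x * x * (((n * x * n⁻¹)⁻¹ * x') * ((n * x * n⁻¹)⁻¹ * x')) := by
      have hc := hcen _ hz (n * x * n⁻¹)
      calc x' * x' = (n * x * n⁻¹) * ((n * x * n⁻¹)⁻¹ * x') *
              ((n * x * n⁻¹) * ((n * x * n⁻¹)⁻¹ * x')) := by group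
        _ = (n * x * n⁻¹) * (((n * x * n⁻¹)⁻¹ * x') * (n * x * n⁻¹)) *
              ((n * x * n⁻¹)⁻¹ * x') := by group
        _ = (n * x * n⁻¹) * ((n * x * n⁻¹) * ((n * x * n⁻¹)⁻¹ * x')) *
              ((n * x * n⁻¹)⁻¹ * x') := by rw [← hc]
        _ = n * (x * x) * n⁻¹ * (((n * x * n⁻¹)⁻¹ * x') * ((n * x * n⁻¹)⁻¹ * x')) := by group
        _ = x * x * (((n * x * n⁻¹)⁻¹ * x') * ((n * x * n⁻¹)⁻¹ * x')) := by rw [hxx]
    have hmem := hWmem ⟨(n * x * n⁻¹)⁻¹ * x', hz⟩
    have heq : (sq x hx)⁻¹ * sq x' hx' = (⟨(n * x * n⁻¹)⁻¹ * x', hz⟩ : ↥Z) ^ 2 := by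
      rw [inv_mul_eq_iff_eq_mul]
      apply Subtype.ext
      rw [pow_two]
      exact hkey
    rw [heq]
    exact hmem
  -- (C2) `(xy)² = [y,x] x² y²`
  have hC2 : ∀ (x : L) (hx : x ∈ (P : Subgroup L)) (y : L) (hy : y ∈ (P : Subgroup L)),
      sq (x * y) (Subgroup.mul_mem _ hx hy) = bz x hx y hy * sq x hx * sq y hy := by
    intro x hx y hy
    apply Subtype.ext
    show x * y * (x * y) = (y * x * y⁻¹ * x⁻¹) * (x * x) * (y * y)
    have hb := hcen _ (hcomm x hx y hy) x
    calc x * y * (x * y) = (x * (y * x * y⁻¹ * x⁻¹)) * x * y * y := by group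
      _ = ((y * x * y⁻¹ * x⁻¹) * x) * x * y * y := by rw [hb]
      _ = (y * x * y⁻¹ * x⁻¹) * (x * x) * (y * y) := by group
  -- bimultiplicativity
  have hbm : ∀ (x : L) (hx : x ∈ (P : Subgroup L)) (r : L) (hr : r ∈ (P : Subgroup L))
      (y : L) (hy : y ∈ (P : Subgroup L)),
      bz (x * r) (Subgroup.mul_mem _ hx hr) y hy = bz x hx y hy * bz r hr y hy := by
    intro x hx r hr y hy
    apply Subtype.ext
    show y * (x * r) * y⁻¹ * (x * r)⁻¹ = (y * x * y⁻¹ * x⁻¹) * (y * r * y⁻¹ * r⁻¹)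
    have hb := hcen _ (hcomm r hr y hy) x⁻¹
    calc y * (x * r) * y⁻¹ * (x * r)⁻¹ = y * x * y⁻¹ * ((y * r * y⁻¹ * r⁻¹) * x⁻¹) := by group
      _ = y * x * y⁻¹ * (x⁻¹ * (y * r * y⁻¹ * r⁻¹)) := by rw [← hb]
      _ = (y * x * y⁻¹ * x⁻¹) * (y * r * y⁻¹ * r⁻¹) := by group
  -- three independent elements
  have h8 : (((P : Subgroup L).map π : Subgroup G) : Set G).ncard = 8 := by
    rw [← Nat.card_coe_set_eq]
    exact hcard
  have hpick : ∀ F : Finset G, F.card < 8 → ∃ g ∈ (P : Subgroup L).map π, g ∉ F := by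
    intro F hF
    by_contra hcon
    push_neg at hcon
    have hle : (((P : Subgroup L).map π : Subgroup G) : Set G).ncard ≤ (F : Set G).ncard :=
      Set.ncard_le_ncard (fun g hg => hcon g hg) (Finset.finite_toSet F)
    rw [Set.ncard_coe_finset, h8] at hle
    omega
  obtain ⟨u, hu, hu1⟩ := hpick {1} (by simp)
  obtain ⟨v, hv, hv1⟩ := hpick {1, u} (lt_of_le_of_lt (Finset.card_le_two) (by norm_num))
  obtain ⟨t, ht, ht1⟩ := hpick {1, u, v, u * v}
    (lt_of_le_of_lt (Finset.card_le_four) (by norm_num))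
  simp only [Finset.mem_singleton] at hu1
  simp only [Finset.mem_insert, Finset.mem_singleton, not_or] at hv1 ht1
  obtain ⟨x, hx, rfl⟩ := hu
  obtain ⟨y, hy, rfl⟩ := hv
  obtain ⟨r, hr, rfl⟩ := ht
  have hnZ : ∀ g : L, π g ≠ 1 → g ∉ Z := fun g hg h => hg ((hker g).mpr h)
  have hxZ : x ∉ Z := hnZ x hu1
  have hyZ : y ∉ Z := hnZ y hv1.1
  have hrZ : r ∉ Z := hnZ r ht1.1
  have hprod : ∀ (a : L) (ha : a ∈ (P : Subgroup L)) (b : L) (hb : b ∈ (P : Subgroup L)),
      π a ≠ π b → a * b ∉ Z := by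
    intro a ha b hb hne
    apply hnZ
    rw [map_mul]
    intro h
    apply hne
    have h2 := eq_inv_of_mul_eq_one_left h
    rw [hSinv _ (hπP b hb)] at h2
    exact h2
  have hxy : x * y ∉ Z := hprod x hx y hy (fun h => hv1.2 h.symm)
  have hxr : x * r ∉ Z := hprod x hx r hr (fun h => ht1.2.1 h.symm)
  have hry : r * y ∉ Z := hprod r hr y hy (fun h => ht1.2.2.1 h)
  have hxry : x * r * y ∉ Z := by
    apply hnZ
    rw [map_mul, map_mul]
    intro h
    apply ht1.2.2.2
    -- π x * π r * π y = 1 gives π r = π x * π y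
    have h2 : π r = (π x)⁻¹ * (π y)⁻¹ := by
      have : π x * π r * π y * (π y)⁻¹ = 1 * (π y)⁻¹ := by rw [h]
      rw [mul_inv_cancel_right, one_mul] at this
      rw [← this]
      group
    rw [h2, hSinv _ (hπP x hx), hSinv _ (hπP y hy)]
  -- the reference square
  set q₀ : ↥Z := sq x hx with hq₀
  -- (C3)
  have hC3 : ∀ (a : L) (ha : a ∈ (P : Subgroup L)) (b : L) (hb : b ∈ (P : Subgroup L)),
      a ∉ Z → b ∉ Z → a * b ∉ Z → bz a ha b hb * q₀ ∈ W := by
    intro a ha b hb haZ hbZ habZ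
    have hA := hC1 x hx hxZ (a * b) (Subgroup.mul_mem _ ha hb) habZ
    have hB := hC1 x hx hxZ b hb hbZ
    have hC := hC1 x hx hxZ a ha haZ
    rw [hC2 a ha b hb] at hA
    have := W.mul_mem (W.mul_mem hA (W.inv_mem hB)) (W.inv_mem hC)
    rw [comm_id1] at this
    exact this
  -- (C4)
  have hq₀W : q₀ ∈ W := by
    have h1 := hC3 x hx y hy hxZ hyZ hxy
    have h2 := hC3 r hr y hy hrZ hyZ hry
    have h3 := hC3 (x * r) (Subgroup.mul_mem _ hx hr) y hy hxr hyZ hxry
    rw [hbm x hx r hr y hy] at h3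
    have := W.mul_mem (W.mul_mem h1 h2) (W.inv_mem h3)
    rw [comm_id2] at this
    exact this
  -- (C5) all commutators of `P` lie in `W`
  have hC5 : ∀ (a : L) (ha : a ∈ (P : Subgroup L)) (b : L) (hb : b ∈ (P : Subgroup L)),
      bz a ha b hb ∈ W := by
    intro a ha b hb
    have hone : b * a = a * b → bz a ha b hb ∈ W := by
      intro h
      have : bz a ha b hb = 1 := by
        apply Subtype.ext
        show b * a * b⁻¹ * a⁻¹ = 1
        rw [h]
        group
      rw [this]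
      exact W.one_mem
    by_cases haZ : a ∈ Z
    · exact hone (hcen a haZ b)
    by_cases hbZ : b ∈ Z
    · exact hone (hcen b hbZ a).symm
    by_cases habZ : a * b ∈ Z
    · apply hone
      have h := hcen (a * b) habZ b
      exact mul_right_cancel (b := b) (by rw [mul_assoc, h])
    · have h := hC3 a ha b hb haZ hbZ habZ
      have := W.mul_mem h (W.inv_mem hq₀W)
      rwa [mul_inv_cancel_right] at this
  -- (D) transfer: `Z ≤ W`
  have hodd : Odd (P : Subgroup L).index := by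
    have h := P.not_dvd_index
    rwa [← even_iff_two_dvd, Nat.not_even_iff_odd] at h
  have hZW : ∀ z : ↥Z, z ∈ W := by
    intro z
    have key : ∀ (k : ℕ) (g₀ : L), g₀⁻¹ * (z : L) ^ k * g₀ ∈ (P : Subgroup L) →
        g₀⁻¹ * (z : L) ^ k * g₀ = (z : L) ^ k := by
      intro k g₀ _
      rw [mul_assoc, ← hcen _ (Z.pow_mem z.2 k) g₀, inv_mul_cancel_left]
    have htr := MonoidHom.transfer_eq_pow
      (Abelianization.of : ↥(P : Subgroup L) →* Abelianization ↥(P : Subgroup L)) (z : L) key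
    have hVker : (MonoidHom.transfer
        (Abelianization.of : ↥(P : Subgroup L) →* Abelianization ↥(P : Subgroup L))).ker = ⊤ := by
      rw [← top_le_iff, ← hperf]
      exact Abelianization.commutator_subset_ker _
    have hV1 : MonoidHom.transfer
        (Abelianization.of : ↥(P : Subgroup L) →* Abelianization ↥(P : Subgroup L)) (z : L) = 1 := by
      have : (z : L) ∈ (MonoidHom.transfer
        (Abelianization.of : ↥(P : Subgroup L) →* Abelianization ↥(P : Subgroup L))).ker := by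
        rw [hVker]; exact Subgroup.mem_top _
      exact this
    rw [htr] at hV1
    have hmemc : (⟨(z : L) ^ (P : Subgroup L).index, MonoidHom.transfer_eq_pow_aux (z : L) key⟩ :
        ↥(P : Subgroup L)) ∈ commutator ↥(P : Subgroup L) := by
      rw [← Abelianization.ker_of]
      exact hV1
    -- the commutator subgroup of `P` maps into `W`
    have hle : commutator ↥(P : Subgroup L) ≤ (W.map Z.subtype).subgroupOf (P : Subgroup L) := by
      rw [commutator_eq_closure, Subgroup.closure_le]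
      rintro _ ⟨a, b, rfl⟩
      show ((⁅a, b⁆ : ↥(P : Subgroup L)) : L) ∈ W.map Z.subtype
      refine ⟨bz b.1 b.2 a.1 a.2, hC5 b.1 b.2 a.1 a.2, ?_⟩
      rw [commutatorElement_def]
      rfl
    obtain ⟨w, hwW, hw⟩ := hle hmemc
    have hpowW : z ^ (P : Subgroup L).index ∈ W := by
      have : w = z ^ (P : Subgroup L).index := by
        apply Subtype.ext
        rw [Subgroup.coe_pow]
        exact hw
      rw [← this]
      exact hwW
    obtain ⟨j, hj⟩ := hodd
    rw [hj] at hpowW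
    have := W.mul_mem hpowW (hWmem (z ^ j)⁻¹)
    rwa [comm_id3] at this
  -- (E) `Z = 1`
  have hiter : ∀ (k : ℕ) (z : ↥Z), ∃ w : ↥Z, w ^ (2 ^ k) = z := by
    intro k
    induction k with
    | zero => intro z; exact ⟨z, by simp⟩
    | succ k ih =>
      intro z
      obtain ⟨w, hw⟩ := ih z
      obtain ⟨v, hv⟩ := hZW w
      refine ⟨v, ?_⟩
      have hv' : v ^ 2 = w := hv
      rw [pow_succ', pow_mul, hv', hw]
  obtain ⟨n, hn⟩ := IsPGroup.iff_card.mp hZ2
  rw [Subgroup.eq_bot_iff_forall]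
  intro z hz
  obtain ⟨w, hw⟩ := hiter n ⟨z, hz⟩
  have h1 : w ^ (2 ^ n) = 1 := by
    rw [← hn]
    exact pow_card_eq_one'
  rw [h1] at hw
  exact (congrArg Subtype.val hw).symm

end Cfsg.Agent.Lib.Helper8.JR
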